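import Cfsg.Agent.H458.P4.Su

/-!
# S5210 [P4-REALa]: torus, Weyl elements, parabolics of `SUJ K` (helper458)
-/

set_option autoImplicit false

namespace Cfsg.Agent.H458.P4

open Matrix Cfsg.Agent.H776.P4

universe u

variable {K : Type u} [Field K] [StarRing K]

/-! ### the torus -/

/-- the diagonal -/
def tv (x y : K) : Fin 4 → K := ![x, y, (star y)⁻¹, (star x)⁻¹]

theorem tv_TV {x y : K} (hx : x ≠ 0) (hy : y ≠ 0) : TV (tv x y) 1 := by
  refine ⟨one_ne_zero, star_one K, ?_, ?_⟩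
  · show x * star ((star x)⁻¹) = 1
    rw [star_inv₀, star_star, mul_inv_cancel₀ hx]
  · show y * star ((star y)⁻¹) = 1
    rw [star_inv₀, star_star, mul_inv_cancel₀ hy]

theorem FJ_diagonal {v : Fin 4 → K} (hv : TV v 1) : FJ (Matrix.diagonal v) := by
  unfold FJ
  have e := hv.rev
  ext i j
  rw [Matrix.diagonal_conjTranspose, Matrix.mul_diagonal, Matrix.diagonal_mul]
  by_cases h : j = Fin.rev i
  · subst h
    have h6 := e i
    calc v i * J K i (Fin.rev i) * star (v (Fin.rev i)) = (v i * star (v (Fin.rev i))) * J K i (Fin.rev i) := by ring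
      _ = J K i (Fin.rev i) := by rw [h6, one_mul]
  · rw [J_zero h, mul_zero, zero_mul]

theorem tv_det {x y : K} (hx : x ≠ 0) (hy : y ≠ 0) (hxy : star (x * y) = x * y) : (Matrix.diagonal (tv x y)).det = 1 := by
  have h3 : star x ≠ 0 := star_ne_zero.2 hx
  have h4 : star y ≠ 0 := star_ne_zero.2 hy
  rw [Matrix.det_diagonal, Fin.prod_univ_four]
  show x * y * (star y)⁻¹ * (star x)⁻¹ = 1
  rw [star_mul'] at hxy
  rw [← hxy]
  field_simp

/-- the torus -/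
def dg (x y : K) (hx : x ≠ 0) (hy : y ≠ 0) (hxy : star (x * y) = x * y) : SUJ K :=
  ⟨⟨Matrix.diagonal (tv x y), tv_det hx hy hxy⟩, FJ_diagonal (tv_TV hx hy)⟩

theorem mx_dg (x y : K) (hx : x ≠ 0) (hy : y ≠ 0) (hxy : star (x * y) = x * y) :
    mx (dg x y hx hy hxy) = Matrix.diagonal (tv x y) := rfl

theorem mx_dg_inv (x y : K) (hx : x ≠ 0) (hy : y ≠ 0) (hxy : star (x * y) = x * y) :
    mx (dg x y hx hy hxy)⁻¹ = Matrix.diagonal (fun i => (tv x y i)⁻¹) := by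
  have h1 : mx (dg x y hx hy hxy) * mx (dg x y hx hy hxy)⁻¹ = 1 := by rw [← mx_mul, mul_inv_cancel, mx_one]
  have h2 : Matrix.diagonal (fun i => (tv x y i)⁻¹) * mx (dg x y hx hy hxy) = 1 := by
    rw [mx_dg, Matrix.diagonal_mul_diagonal, ← Matrix.diagonal_one]
    congr 1
    funext i
    exact inv_mul_cancel₀ ((tv_TV hx hy).ne i)
  calc mx (dg x y hx hy hxy)⁻¹ = (Matrix.diagonal (fun i => (tv x y i)⁻¹) * mx (dg x y hx hy hxy)) * mx (dg x y hx hy hxy)⁻¹ := by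
        rw [h2, Matrix.one_mul]
    _ = Matrix.diagonal (fun i => (tv x y i)⁻¹) := by rw [Matrix.mul_assoc, h1, Matrix.mul_one]

/-- conjugation with the torus -/
theorem mx_dg_conj (x y : K) (hx : x ≠ 0) (hy : y ≠ 0) (hxy : star (x * y) = x * y) (g : SUJ K) :
    mx (dg x y hx hy hxy * g * (dg x y hx hy hxy)⁻¹) = cjm (tv x y) (RingEquiv.refl K) (mx g) := by
  rw [mx_mul, mx_mul, mx_dg, mx_dg_inv, cjm_eq]
  rfl

theorem dg_conj {x y : K} (hx : x ≠ 0) (hy : y ≠ 0) (hxy : star (x * y) = x * y)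
    {α : MulAut (PG K)} (hα : IsTorP α (x / y) (y * star y) (RingEquiv.refl K)) (z : PG K) :
    dg x y hx hy hxy * emb z * (dg x y hx hy hxy)⁻¹ = emb (α z) := by
  apply mx_injective
  rw [mx_dg_conj, mx_emb, mx_emb]
  have h3 : star x ≠ 0 := star_ne_zero.2 hx
  have h4 : star y ≠ 0 := star_ne_zero.2 hy
  refine cjm_mt (s := x / y) (l := y * star y) ?_ ?_ ?_ hy hα z
  · show x = x / y * y
    field_simp
  · show (star y)⁻¹ = (y * star y)⁻¹ * y
    field_simp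
  · show (star x)⁻¹ = (y * star y)⁻¹ * (star (x / y))⁻¹ * y
    rw [star_div₀]
    field_simp

/-- the torus normalizes `emb.range` -/
theorem dg_norm {x y : K} (hx : x ≠ 0) (hy : y ≠ 0) (hxy : star (x * y) = x * y) (z : PG K) :
    ∃ w : PG K, dg x y hx hy hxy * emb z * (dg x y hx hy hxy)⁻¹ = emb w := by
  have h := mem_range_emb (g := dg x y hx hy hxy * emb z * (dg x y hx hy hxy)⁻¹) ?_ ?_
  · obtain ⟨y, hy⟩ := h
    exact ⟨y, hy.symm⟩
  · intro i j hij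
    rw [mx_dg_conj, mx_emb]
    show tv x y i * mt z i j * (tv x y j)⁻¹ = 0
    have : mt z i j = 0 := mt_tri z hij
    rw [this, mul_zero, zero_mul]
  · intro i
    rw [mx_dg_conj, mx_emb]
    show tv x y i * mt z i i * (tv x y i)⁻¹ = 1
    have h1 : mt z i i = 1 := by fin_cases i <;> rfl
    rw [h1, mul_one, mul_inv_cancel₀ ((tv_TV hx hy).ne i)]

/-- the upper triangular elements -/
theorem exists_of_tri {g : SUJ K} (h0 : ∀ i j, j < i → mx g i j = 0) :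
    ∃ (u : PG K) (x y : K) (hx : x ≠ 0) (hy : y ≠ 0) (hxy : star (x * y) = x * y), g = emb u * dg x y hx hy hxy := by
  have hM := mx_form g
  have z10 : mx g 1 0 = 0 := h0 _ _ (by decide)
  have z20 : mx g 2 0 = 0 := h0 _ _ (by decide)
  have z21 : mx g 2 1 = 0 := h0 _ _ (by decide)
  have z30 : mx g 3 0 = 0 := h0 _ _ (by decide)
  have z31 : mx g 3 1 = 0 := h0 _ _ (by decide)
  have z32 : mx g 3 2 = 0 := h0 _ _ (by decide)
  have r03 := hM.row_rel 0 3
  have r12 := hM.row_rel 1 2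
  have j03 : J K 0 3 = 1 := rfl
  have j12 : J K 1 2 = 1 := rfl
  rw [j03, z30, z31, z32, star_zero, mul_zero, mul_zero, mul_zero, add_zero, sub_zero, sub_zero] at r03
  rw [j12, z10, z20, z21, star_zero, mul_zero, mul_zero, zero_mul, zero_add, sub_zero, sub_zero] at r12
  have hdet : mx g 0 0 * mx g 1 1 * mx g 2 2 * mx g 3 3 = 1 := by
    have h1 := mx_det g
    rw [Matrix.det_of_isUpperTriangular (fun i j h => h0 i j h), Fin.prod_univ_four] at h1
    exact h1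
  have n0 : mx g 0 0 ≠ 0 := fun h => by rw [h, zero_mul] at r03; exact zero_ne_one r03
  have n1 : mx g 1 1 ≠ 0 := fun h => by rw [h, zero_mul] at r12; exact zero_ne_one r12
  have e3 : mx g 3 3 = (star (mx g 0 0))⁻¹ := by
    have h := eq_inv_of_mul_eq_one_right r03
    have h2 := congrArg star h
    rwa [star_star, star_inv₀] at h2
  have e2 : mx g 2 2 = (star (mx g 1 1))⁻¹ := by
    have h := eq_inv_of_mul_eq_one_right r12
    have h2 := congrArg star h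
    rwa [star_star, star_inv₀] at h2
  have s0 : star (mx g 0 0) ≠ 0 := star_ne_zero.2 n0
  have s1 : star (mx g 1 1) ≠ 0 := star_ne_zero.2 n1
  have hxy : star (mx g 0 0 * mx g 1 1) = mx g 0 0 * mx g 1 1 := by
    rw [e2, e3] at hdet
    rw [star_mul']
    field_simp at hdet
    linear_combination -hdet
  have hd : ∀ i, mx g i i = tv (mx g 0 0) (mx g 1 1) i := by
    intro i
    fin_cases i
    · rfl
    · rfl
    · exact e2
    · exact e3
  have key := mem_range_emb (g := g * (dg _ _ n0 n1 hxy)⁻¹) ?_ ?_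
  · obtain ⟨x, hx⟩ := key
    exact ⟨x, _, _, n0, n1, hxy, by rw [hx, inv_mul_cancel_right]⟩
  · intro i j hij
    rw [mx_mul, mx_dg_inv, Matrix.mul_diagonal, h0 i j hij, zero_mul]
  · intro i
    rw [mx_mul, mx_dg_inv, Matrix.mul_diagonal, hd i, mul_inv_cancel₀ ((tv_TV n0 n1).ne i)]

/-- the upper triangular elements normalize `emb.range` -/
theorem tri_norm {g : SUJ K} (h0 : ∀ i j, j < i → mx g i j = 0) (z : PG K) : g * emb z * g⁻¹ ∈ (emb : PG K →* SUJ K).range := by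
  obtain ⟨u, x, y, hx, hy, hxy, rfl⟩ := exists_of_tri h0
  obtain ⟨w, hw⟩ := dg_norm hx hy hxy z
  refine ⟨u * w * u⁻¹, ?_⟩
  rw [map_mul, map_mul, ← hw, map_inv]
  group

/-! ### the Weyl elements -/

/-- the matrix of the Weyl element of the parabolic `V` -/
def wVm : Matrix (Fin 4) (Fin 4) K :=
  !![0, 1, 0, 0; -1, 0, 0, 0; 0, 0, 0, -1; 0, 0, 1, 0]

/-- its inverse -/
def wVi : Matrix (Fin 4) (Fin 4) K :=
  !![0, -1, 0, 0; 1, 0, 0, 0; 0, 0, 0, 1; 0, 0, -1, 0]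

theorem wVi_mul : (wVi : Matrix (Fin 4) (Fin 4) K) * wVm = 1 := by
  ext i j
  fin_cases i <;> fin_cases j <;> simp [wVm, wVi, Matrix.mul_apply, Fin.sum_univ_four]

theorem wVm_form : FJ (wVm : Matrix (Fin 4) (Fin 4) K) := by
  unfold FJ
  ext i j
  fin_cases i <;> fin_cases j <;> simp [wVm, J, Matrix.mul_apply, Fin.sum_univ_four]

theorem wVm_det : (wVm : Matrix (Fin 4) (Fin 4) K).det = 1 := by
  simp [wVm, Matrix.det_succ_row_zero, Fin.sum_univ_succ, Fin.succAbove]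

/-- the Weyl element of the parabolic `V` -/
def wV : SUJ K := ⟨⟨wVm, wVm_det⟩, wVm_form⟩

/-- the matrix of the Weyl element of the parabolic `Q` -/
def wQm : Matrix (Fin 4) (Fin 4) K :=
  !![1, 0, 0, 0; 0, 0, 1, 0; 0, -1, 0, 0; 0, 0, 0, 1]

/-- its inverse -/
def wQi : Matrix (Fin 4) (Fin 4) K :=
  !![1, 0, 0, 0; 0, 0, -1, 0; 0, 1, 0, 0; 0, 0, 0, 1]

theorem wQi_mul : (wQi : Matrix (Fin 4) (Fin 4) K) * wQm = 1 := by
  ext i j
  fin_cases i <;> fin_cases j <;> simp [wQm, wQi, Matrix.mul_apply, Fin.sum_univ_four]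

theorem wQm_form : FJ (wQm : Matrix (Fin 4) (Fin 4) K) := by
  unfold FJ
  ext i j
  fin_cases i <;> fin_cases j <;> simp [wQm, J, Matrix.mul_apply, Fin.sum_univ_four]

theorem wQm_det : (wQm : Matrix (Fin 4) (Fin 4) K).det = 1 := by
  simp [wQm, Matrix.det_succ_row_zero, Fin.sum_univ_succ, Fin.succAbove]

/-- the Weyl element of the parabolic `Q` -/
def wQ : SUJ K := ⟨⟨wQm, wQm_det⟩, wQm_form⟩

theorem mx_inv_of {g : SUJ K} {N : Matrix (Fin 4) (Fin 4) K} (h : N * mx g = 1) : mx g⁻¹ = N := by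
  have h1 : mx g * mx g⁻¹ = 1 := by rw [← mx_mul, mul_inv_cancel, mx_one]
  calc mx g⁻¹ = (N * mx g) * mx g⁻¹ := by rw [h, Matrix.one_mul]
    _ = N := by rw [Matrix.mul_assoc, h1, Matrix.mul_one]

theorem mx_wV_inv : mx (wV : SUJ K)⁻¹ = wVi := mx_inv_of wVi_mul
theorem mx_wQ_inv : mx (wQ : SUJ K)⁻¹ = wQi := mx_inv_of wQi_mul

set_option maxHeartbeats 2000000 in
theorem wV_conj {γ : MulAut (PV K)} (hγ : IsWV γ) (e : PV K) :
    wV * emb (e : PG K) * wV⁻¹ = emb ((γ e : PV K) : PG K) := by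
  rw [mul_inv_eq_iff_eq_mul]
  apply mx_injective
  show (wVm : Matrix (Fin 4) (Fin 4) K) * mt (e : PG K) = mt ((γ e : PV K) : PG K) * wVm
  have h0 : (e : PG K).r = 0 := e.2
  have h0' : ((γ e : PV K) : PG K).r = 0 := (γ e).2
  have h3 := hγ.a e
  have h4 := hγ.b e
  have h5 := hγ.c e
  ext i j
  fin_cases i <;> fin_cases j <;>
    simp [wVm, mt, Matrix.mul_apply, Fin.sum_univ_four, h0, h0', h3, h4, h5]

set_option maxHeartbeats 2000000 in
theorem wQ_conj {γ : MulAut (PQ K)} (hγ : IsWQ γ) (e : PQ K) :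
    wQ * emb (e : PG K) * wQ⁻¹ = emb ((γ e : PQ K) : PG K) := by
  rw [mul_inv_eq_iff_eq_mul]
  apply mx_injective
  show (wQm : Matrix (Fin 4) (Fin 4) K) * mt (e : PG K) = mt ((γ e : PQ K) : PG K) * wQm
  have h0 : (e : PG K).c = 0 := e.2
  have h0' : ((γ e : PQ K) : PG K).c = 0 := (γ e).2
  have h3 := hγ.r e
  have h4 := hγ.a e
  have h5 := hγ.b e
  ext i j
  fin_cases i <;> fin_cases j <;>
    simp [wQm, mt, Matrix.mul_apply, Fin.sum_univ_four, h0, h0', h3, h4, h5]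
  all_goals try ring1

/-! ### the parabolics -/

/-- a one-sided normalizer of a subgroup of `PG K` -/
theorem surj_of [Finite (SUJ K)] {H : Subgroup (PG K)} {g : SUJ K} (hg : ∀ e ∈ H, ∃ e' ∈ H, g * emb e * g⁻¹ = emb e') :
    ∀ e' ∈ H, ∃ e ∈ H, mt e' * mx g = mx g * mt e := by
  have hmap : (H.map (emb : PG K →* SUJ K)).map (MulAut.conj g).toMonoidHom = H.map (emb : PG K →* SUJ K) := by
    refine Subgroup.eq_of_le_of_card_ge ?_ ?_
    · rintro _ ⟨_, ⟨x, hx, rfl⟩, rfl⟩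
      obtain ⟨e', he', h⟩ := hg x hx
      exact ⟨e', he', h.symm⟩
    · exact (Nat.card_congr ((H.map (emb : PG K →* SUJ K)).equivMapOfInjective (MulAut.conj g).toMonoidHom
        (MulAut.conj g).injective).toEquiv).le
  intro e' he'
  have h1 : (emb e' : SUJ K) ∈ (H.map (emb : PG K →* SUJ K)).map (MulAut.conj g).toMonoidHom := by
    rw [hmap]
    exact ⟨e', he', rfl⟩
  obtain ⟨_, ⟨y, hy, rfl⟩, hy'⟩ := h1
  refine ⟨y, hy, ?_⟩
  have h2 : g * emb y * g⁻¹ = emb e' := hy'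
  rw [mul_inv_eq_iff_eq_mul] at h2
  exact (congrArg mx h2).symm

/-- the block form of the normalizer of `V` -/
theorem blockV {M : Matrix (Fin 4) (Fin 4) K} (key : ∀ e' ∈ PV K, ∃ e ∈ PV K, mt e' * M = M * mt e) :
    M 2 0 = 0 ∧ M 2 1 = 0 ∧ M 3 0 = 0 ∧ M 3 1 = 0 := by
  have c0 : ∀ x ∈ PV K, ∀ i, mt x i 0 * M 0 0 + mt x i 1 * M 1 0 + mt x i 2 * M 2 0 + mt x i 3 * M 3 0 = M i 0 := by
    intro x hx i
    obtain ⟨y, hy', hy⟩ := key x hx
    have h1 := congrFun (congrFun hy i) 0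
    rw [Matrix.mul_apply, Matrix.mul_apply, Fin.sum_univ_four, Fin.sum_univ_four] at h1
    rw [h1]
    show M i 0 * 1 + M i 1 * 0 + M i 2 * 0 + M i 3 * 0 = M i 0
    ring
  have c1 : ∀ x ∈ PV K, ∀ i, mt x i 0 * M 0 1 + mt x i 1 * M 1 1 + mt x i 2 * M 2 1 + mt x i 3 * M 3 1 = M i 1 := by
    intro x hx i
    obtain ⟨y, hy', hy⟩ := key x hx
    have h1 := congrFun (congrFun hy i) 1
    rw [Matrix.mul_apply, Matrix.mul_apply, Fin.sum_univ_four, Fin.sum_univ_four] at h1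
    rw [h1]
    show M i 0 * y.r + M i 1 * 1 + M i 2 * 0 + M i 3 * 0 = M i 1
    have hr : y.r = 0 := hy'
    rw [hr]
    ring
  let xA : PG K := ⟨0, 1, 0, 0, by simp, by simp⟩
  let xC : PG K := ⟨0, 0, 0, 1, by simp, by simp⟩
  have hA : xA ∈ PV K := rfl
  have hC : xC ∈ PV K := rfl
  refine ⟨?_, ?_, ?_, ?_⟩
  · have h2 : (0 : K) * M 0 0 + 1 * M 1 0 + 1 * M 2 0 + (star (0 : K) - 1 * star (0 : K)) * M 3 0 = M 1 0 := c0 xC hC 1
    rw [star_zero] at h2
    linear_combination h2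
  · have h2 : (0 : K) * M 0 1 + 1 * M 1 1 + 1 * M 2 1 + (star (0 : K) - 1 * star (0 : K)) * M 3 1 = M 1 1 := c1 xC hC 1
    rw [star_zero] at h2
    linear_combination h2
  · have h2 : (1 : K) * M 0 0 + 0 * M 1 0 + 0 * M 2 0 + (1 - 0 * star (0 : K)) * M 3 0 = M 0 0 := c0 xA hA 0
    linear_combination h2
  · have h2 : (1 : K) * M 0 1 + 0 * M 1 1 + 0 * M 2 1 + (1 - 0 * star (0 : K)) * M 3 1 = M 0 1 := c1 xA hA 0
    linear_combination h2

/-- the form of the normalizer of `Q` -/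
theorem blockQ {M : Matrix (Fin 4) (Fin 4) K} (hM : FJ M) (key : ∀ e' ∈ PQ K, ∃ e ∈ PQ K, mt e' * M = M * mt e) :
    M 1 0 = 0 ∧ M 2 0 = 0 ∧ M 3 0 = 0 ∧ M 3 1 = 0 ∧ M 3 2 = 0 := by
  have c0 : ∀ x ∈ PQ K, ∀ i, mt x i 0 * M 0 0 + mt x i 1 * M 1 0 + mt x i 2 * M 2 0 + mt x i 3 * M 3 0 = M i 0 := by
    intro x hx i
    obtain ⟨y, hy', hy⟩ := key x hx
    have h1 := congrFun (congrFun hy i) 0
    rw [Matrix.mul_apply, Matrix.mul_apply, Fin.sum_univ_four, Fin.sum_univ_four] at h1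
    rw [h1]
    show M i 0 * 1 + M i 1 * 0 + M i 2 * 0 + M i 3 * 0 = M i 0
    ring
  let xA : PG K := ⟨0, 1, 0, 0, by simp, by simp⟩
  let xR : PG K := ⟨1, 0, 0, 0, by simp, by simp⟩
  let xB : PG K := ⟨0, 0, 1, 0, by simp, by simp⟩
  have hA : xA ∈ PQ K := rfl
  have hR : xR ∈ PQ K := rfl
  have hB : xB ∈ PQ K := rfl
  have m30 : M 3 0 = 0 := by
    have h2 : (1 : K) * M 0 0 + 0 * M 1 0 + 0 * M 2 0 + (1 - 0 * star (0 : K)) * M 3 0 = M 0 0 := c0 xA hA 0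
    linear_combination h2
  have m10 : M 1 0 = 0 := by
    have h2 : (1 : K) * M 0 0 + 1 * M 1 0 + 0 * M 2 0 + (0 - 0 * star (1 : K)) * M 3 0 = M 0 0 := c0 xR hR 0
    linear_combination h2
  have m20 : M 2 0 = 0 := by
    have h2 : (1 : K) * M 0 0 + 0 * M 1 0 + 1 * M 2 0 + (0 - 1 * star (0 : K)) * M 3 0 = M 0 0 := c0 xB hB 0
    rw [m30] at h2
    linear_combination h2
  have f0 : ∀ j, star (M 0 0) * M 3 j = J K 0 j := by
    intro j
    have h1 := hM.col_rel 0 j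
    rw [m10, m20, m30, star_zero] at h1
    linear_combination h1
  have n0 : star (M 0 0) ≠ 0 := by
    intro h0
    have h1 : star (M 0 0) * M 3 3 = 1 := f0 3
    rw [h0, zero_mul] at h1
    exact zero_ne_one h1
  have m3 : ∀ j, J K 0 j = 0 → M 3 j = 0 := by
    intro j hj
    have h1 := f0 j
    rw [hj] at h1
    exact (mul_eq_zero.1 h1).resolve_left n0
  exact ⟨m10, m20, m30, m3 1 rfl, m3 2 rfl⟩

/-- block upper triangular and `M 1 0 = 0` -/
theorem tri_of_blockV {M : Matrix (Fin 4) (Fin 4) K} (hM : FJ M) (h20 : M 2 0 = 0) (h21 : M 2 1 = 0) (h30 : M 3 0 = 0)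
    (h31 : M 3 1 = 0) (h10 : M 1 0 = 0) : ∀ i j, j < i → M i j = 0 := by
  have r12 := hM.row_rel 1 2
  have r13 := hM.row_rel 1 3
  have j12 : J K 1 2 = 1 := rfl
  have j13 : J K 1 3 = 0 := rfl
  rw [j12, h10, h20, h21, star_zero, mul_zero, mul_zero, zero_mul, zero_add, sub_zero, sub_zero] at r12
  rw [j13, h10, h30, h31, star_zero, mul_zero, mul_zero, zero_mul, zero_add, sub_zero, sub_zero] at r13
  have n1 : M 1 1 ≠ 0 := fun h => by rw [h, zero_mul] at r12; exact zero_ne_one r12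
  have m32 : M 3 2 = 0 := star_eq_zero.1 ((mul_eq_zero.1 r13).resolve_left n1)
  intro i j hij
  fin_cases i <;> fin_cases j <;> first | exact absurd hij (by decide) | assumption

/-- Bruhat decomposition of the parabolic `V` -/
theorem brV [Finite (SUJ K)] {g : SUJ K} (hg : ∀ e ∈ PV K, ∃ e' ∈ PV K, g * emb e * g⁻¹ = emb e') :
    (∀ i j, j < i → mx g i j = 0) ∨
    ∃ (x : PG K) (h : SUJ K), (∀ i j, j < i → mx h i j = 0) ∧ g = emb x * wV * h := by
  obtain ⟨m20, m21, m30, m31⟩ := blockV (surj_of hg)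
  by_cases m10 : mx g 1 0 = 0
  · exact Or.inl (tri_of_blockV (mx_form g) m20 m21 m30 m31 m10)
  right
  let x : PG K := ⟨- mx g 0 0 / mx g 1 0, 0, 0, 0, by simp, by simp⟩
  refine ⟨x⁻¹, wV⁻¹ * (emb x * g), ?_, by rw [map_inv]; group⟩
  have hmx : mx (wV⁻¹ * (emb x * g)) = wVi * (mt x * mx g) := by rw [mx_mul, mx_mul, mx_wV_inv, mx_emb]
  obtain ⟨N, hN⟩ : ∃ N : Matrix (Fin 4) (Fin 4) K, N = wVi * (mt x * mx g) := ⟨_, rfl⟩
  rw [← hN] at hmx
  have ent : ∀ i j, N i j = wVi i 0 * (mt x 0 0 * mx g 0 j + mt x 0 1 * mx g 1 j + mt x 0 2 * mx g 2 j +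
      mt x 0 3 * mx g 3 j) + wVi i 1 * (mt x 1 0 * mx g 0 j + mt x 1 1 * mx g 1 j + mt x 1 2 * mx g 2 j + mt x 1 3 * mx g 3 j) +
      wVi i 2 * (mt x 2 0 * mx g 0 j + mt x 2 1 * mx g 1 j + mt x 2 2 * mx g 2 j + mt x 2 3 * mx g 3 j) +
      wVi i 3 * (mt x 3 0 * mx g 0 j + mt x 3 1 * mx g 1 j + mt x 3 2 * mx g 2 j + mt x 3 3 * mx g 3 j) := by
    intro i j
    rw [hN]
    simp only [Matrix.mul_apply, Fin.sum_univ_four]
  have hb20 : N 2 0 = 0 := by
    rw [ent]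
    simp [wVi, mt, m20, m21, m30, m31]
  have hb21 : N 2 1 = 0 := by
    rw [ent]
    simp [wVi, mt, m20, m21, m30, m31]
  have hb30 : N 3 0 = 0 := by
    rw [ent]
    simp [wVi, mt, m20, m21, m30, m31]
  have hb31 : N 3 1 = 0 := by
    rw [ent]
    simp [wVi, mt, m20, m21, m30, m31]
  have hb10 : N 1 0 = 0 := by
    rw [ent]
    simp [wVi, mt, m20, m21, m30, m31, x]
    field_simp
    ring
  have hform : FJ N := by
    rw [← hmx]
    exact mx_form _
  intro i j hij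
  rw [hmx]
  exact tri_of_blockV hform hb20 hb21 hb30 hb31 hb10 i j hij

/-- Bruhat decomposition of the parabolic `Q` -/
theorem brQ [Finite (SUJ K)] {g : SUJ K} (hg : ∀ e ∈ PQ K, ∃ e' ∈ PQ K, g * emb e * g⁻¹ = emb e') :
    (∀ i j, j < i → mx g i j = 0) ∨
    ∃ (x : PG K) (h : SUJ K), (∀ i j, j < i → mx h i j = 0) ∧ g = emb x * wQ * h := by
  obtain ⟨m10, m20, m30, m31, m32⟩ := blockQ (mx_form g) (surj_of hg)
  by_cases m21 : mx g 2 1 = 0
  · left
    intro i j hij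
    fin_cases i <;> fin_cases j <;> first | exact absurd hij (by decide) | assumption
  right
  have hst : star (mx g 1 1) * mx g 2 1 = star (mx g 2 1) * mx g 1 1 := by
    have h1 := (mx_form g).col_rel 1 1
    have j11 : J K 1 1 = 0 := rfl
    rw [j11, m31, star_zero] at h1
    linear_combination h1
  have hs21 : star (mx g 2 1) ≠ 0 := star_ne_zero.2 m21
  have hc : star (- mx g 1 1 / mx g 2 1) = - mx g 1 1 / mx g 2 1 := by
    rw [star_div₀, star_neg, div_eq_div_iff hs21 m21]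
    linear_combination -hst
  let x : PG K := ⟨0, 0, 0, - mx g 1 1 / mx g 2 1, by simp, hc⟩
  refine ⟨x⁻¹, wQ⁻¹ * (emb x * g), ?_, by rw [map_inv]; group⟩
  have hmx : mx (wQ⁻¹ * (emb x * g)) = wQi * (mt x * mx g) := by rw [mx_mul, mx_mul, mx_wQ_inv, mx_emb]
  obtain ⟨N, hN⟩ : ∃ N : Matrix (Fin 4) (Fin 4) K, N = wQi * (mt x * mx g) := ⟨_, rfl⟩
  rw [← hN] at hmx
  have ent : ∀ i j, N i j = wQi i 0 * (mt x 0 0 * mx g 0 j + mt x 0 1 * mx g 1 j + mt x 0 2 * mx g 2 j +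
      mt x 0 3 * mx g 3 j) + wQi i 1 * (mt x 1 0 * mx g 0 j + mt x 1 1 * mx g 1 j + mt x 1 2 * mx g 2 j + mt x 1 3 * mx g 3 j) +
      wQi i 2 * (mt x 2 0 * mx g 0 j + mt x 2 1 * mx g 1 j + mt x 2 2 * mx g 2 j + mt x 2 3 * mx g 3 j) +
      wQi i 3 * (mt x 3 0 * mx g 0 j + mt x 3 1 * mx g 1 j + mt x 3 2 * mx g 2 j + mt x 3 3 * mx g 3 j) := by
    intro i j
    rw [hN]
    simp only [Matrix.mul_apply, Fin.sum_univ_four]
  have hb10 : N 1 0 = 0 := by
    rw [ent]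
    simp [wQi, mt, m10, m20, m30, x]
  have hb20 : N 2 0 = 0 := by
    rw [ent]
    simp [wQi, mt, m10, m20, m30, x]
  have hb30 : N 3 0 = 0 := by
    rw [ent]
    simp [wQi, mt, m10, m20, m30, x]
  have hb31 : N 3 1 = 0 := by
    rw [ent]
    simp [wQi, mt, m31, x]
  have hb32 : N 3 2 = 0 := by
    rw [ent]
    simp [wQi, mt, m32, x]
  have hb21 : N 2 1 = 0 := by
    rw [ent]
    simp [wQi, mt, m31, x]
    field_simp
    ring
  intro i j hij
  rw [hmx]
  fin_cases i <;> fin_cases j <;> first | exact absurd hij (by decide) | assumption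

end Cfsg.Agent.H458.P4
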