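import Cfsg.Agent.H458.P4.SuB
import Cfsg.Agent.H881.P4.Auts
import Cfsg.Agent.H64.P4.NrmQ

/-!
# S5210 [P4-REALa]: the normalizer, Sylow, the action of the torus; `StRealA` (helper458)
-/

set_option autoImplicit false

namespace Cfsg.Agent.H458.P4

open Matrix Cfsg.Agent.H776.P4 Cfsg.Agent.H881.P4
open Cfsg.Agent.H756.PU (HypK)

universe u

variable {K : Type u} [Field K] [StarRing K] {p n : ℕ}

/-! ### the normalizer of the Sylow subgroup -/

theorem finite_SUJ (h : HypK K p n) : Finite (SUJ K) := by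
  have := h.fin
  exact Finite.of_injective (mx : SUJ K → Matrix (Fin 4) (Fin 4) K) mx_injective

/-- the elements which normalize `emb.range` are upper triangular -/
theorem tri_of_norm [Finite (SUJ K)] {g : SUJ K} (hg : ∀ x : PG K, g * emb x * g⁻¹ ∈ (emb : PG K →* SUJ K).range) :
    ∀ i j, j < i → mx g i j = 0 := by
  have key := surj_of (H := ⊤) (g := g) (fun e _ => by
    obtain ⟨y, hy⟩ := hg e
    exact ⟨y, trivial, hy.symm⟩)
  have hM := mx_form g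
  generalize mx g = M at key hM ⊢
  have c0 : ∀ x : PG K, ∀ i, mt x i 0 * M 0 0 + mt x i 1 * M 1 0 + mt x i 2 * M 2 0 + mt x i 3 * M 3 0 = M i 0 := by
    intro x i
    obtain ⟨y, -, hy⟩ := key x trivial
    have h1 := congrFun (congrFun hy i) 0
    rw [Matrix.mul_apply, Matrix.mul_apply, Fin.sum_univ_four, Fin.sum_univ_four] at h1
    rw [h1]
    show M i 0 * 1 + M i 1 * 0 + M i 2 * 0 + M i 3 * 0 = M i 0
    ring
  have c1 : ∀ x : PG K, ∃ z : K, ∀ i, mt x i 0 * M 0 1 + mt x i 1 * M 1 1 + mt x i 2 * M 2 1 + mt x i 3 * M 3 1 =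
      M i 0 * z + M i 1 := by
    intro x
    obtain ⟨y, -, hy⟩ := key x trivial
    refine ⟨y.r, fun i => ?_⟩
    have h1 := congrFun (congrFun hy i) 1
    rw [Matrix.mul_apply, Matrix.mul_apply, Fin.sum_univ_four, Fin.sum_univ_four] at h1
    rw [h1]
    show M i 0 * y.r + M i 1 * 1 + M i 2 * 0 + M i 3 * 0 = M i 0 * y.r + M i 1
    ring
  let xA : PG K := ⟨0, 1, 0, 0, by simp, by simp⟩
  let xR : PG K := ⟨1, 0, 0, 0, by simp, by simp⟩
  let xB : PG K := ⟨0, 0, 1, 0, by simp, by simp⟩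
  let xC : PG K := ⟨0, 0, 0, 1, by simp, by simp⟩
  have m30 : M 3 0 = 0 := by
    have h2 : (1 : K) * M 0 0 + 0 * M 1 0 + 0 * M 2 0 + (1 - 0 * star (0 : K)) * M 3 0 = M 0 0 := c0 xA 0
    linear_combination h2
  have m10 : M 1 0 = 0 := by
    have h2 : (1 : K) * M 0 0 + 1 * M 1 0 + 0 * M 2 0 + (0 - 0 * star (1 : K)) * M 3 0 = M 0 0 := c0 xR 0
    linear_combination h2
  have m20 : M 2 0 = 0 := by
    have h2 : (1 : K) * M 0 0 + 0 * M 1 0 + 1 * M 2 0 + (0 - 1 * star (0 : K)) * M 3 0 = M 0 0 := c0 xB 0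
    rw [m30] at h2
    linear_combination h2
  have m31 : M 3 1 = 0 := by
    obtain ⟨z, h1⟩ := c1 xR
    have h2 : (0 : K) * M 0 1 + 0 * M 1 1 + 1 * M 2 1 + (- star (1 : K)) * M 3 1 = M 2 0 * z + M 2 1 := h1 2
    rw [star_one, m20] at h2
    linear_combination -h2
  have m21 : M 2 1 = 0 := by
    obtain ⟨z, h1⟩ := c1 xC
    have h2 : (0 : K) * M 0 1 + 1 * M 1 1 + 1 * M 2 1 + (star (0 : K) - 1 * star (0 : K)) * M 3 1 = M 1 0 * z + M 1 1 := h1 1
    rw [star_zero, m10] at h2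
    linear_combination h2
  exact tri_of_blockV hM m20 m21 m30 m31 m10

/-! ### Sylow -/

theorem diag_mul {M N : Matrix (Fin 4) (Fin 4) K} (hM : ∀ i j, j < i → M i j = 0) (hN : ∀ i j, j < i → N i j = 0)
    (i : Fin 4) : (M * N) i i = M i i * N i i := by
  rw [Matrix.mul_apply]
  refine Finset.sum_eq_single i (fun k _ hk => ?_) (fun h => absurd (Finset.mem_univ i) h)
  rcases lt_or_gt_of_ne hk with h | h
  · rw [hM i k h, zero_mul]
  · rw [hN k i h, mul_zero]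

theorem tri_mul {M N : Matrix (Fin 4) (Fin 4) K} (hM : ∀ i j, j < i → M i j = 0) (hN : ∀ i j, j < i → N i j = 0)
    (i j : Fin 4) (hij : j < i) : (M * N) i j = 0 := by
  rw [Matrix.mul_apply]
  refine Finset.sum_eq_zero fun k _ => ?_
  rcases lt_or_ge k i with h | h
  · rw [hM i k h, zero_mul]
  · rw [hN k j (lt_of_lt_of_le hij h), mul_zero]

theorem tri_pow {g : SUJ K} (hg : ∀ i j, j < i → mx g i j = 0) (k : ℕ) :
    (∀ i j, j < i → mx (g ^ k) i j = 0) ∧ ∀ i, mx (g ^ k) i i = mx g i i ^ k := by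
  induction k with
  | zero =>
    rw [pow_zero, mx_one]
    exact ⟨fun i j h => Matrix.one_apply_ne h.ne', fun i => by rw [Matrix.one_apply_eq, pow_zero]⟩
  | succ k ih =>
    rw [pow_succ, mx_mul]
    exact ⟨tri_mul ih.1 hg, fun i => by rw [diag_mul ih.1 hg, ih.2, pow_succ]⟩

theorem index_emb (h : HypK K p n) : ¬ p ∣ (emb : PG K →* SUJ K).range.index := by
  classical
  have hpp := h.pp
  have : Fact p.Prime := ⟨hpp⟩
  have hfin := finite_SUJ h
  have hK := h.fin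
  have := Fintype.ofFinite K
  have hP : IsPGroup p (emb : PG K →* SUJ K).range := by
    have h1 : IsPGroup p (⊤ : Subgroup (PG K)) := (stGrp.{u} h).2.1
    have h2 : IsPGroup p (PG K) := h1.of_equiv Subgroup.topEquiv
    exact h2.of_surjective (emb : PG K →* SUJ K).rangeRestrict (MonoidHom.rangeRestrict_surjective _)
  obtain ⟨S, hS⟩ := hP.exists_le_sylow
  have heq : (emb : PG K →* SUJ K).range = S := by
    by_contra hne
    -- the normalizer condition in `S`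
    have hnil : Group.IsNilpotent (S : Subgroup (SUJ K)) := S.2.isNilpotent
    have hnc := Group.normalizerCondition_of_isNilpotent (G := (S : Subgroup (SUJ K)))
    have h1 : (emb : PG K →* SUJ K).range.subgroupOf S < ⊤ := by
      rw [lt_top_iff_ne_top, Ne, Subgroup.subgroupOf_eq_top]
      exact fun hle => hne (le_antisymm hS hle)
    have h2 := hnc _ h1
    obtain ⟨g, hg1, hg2⟩ := SetLike.exists_of_lt h2
    have hgn : ∀ x : PG K, (g : SUJ K) * emb x * (g : SUJ K)⁻¹ ∈ (emb : PG K →* SUJ K).range := by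
      intro x
      have h3 := hg1
      rw [Subgroup.mem_normalizer_iff] at h3
      have h4 := (h3 ⟨emb x, hS ⟨x, rfl⟩⟩).1 (Subgroup.mem_subgroupOf.2 ⟨x, rfl⟩)
      rw [Subgroup.mem_subgroupOf] at h4
      exact h4
    have htri := tri_of_norm hgn
    apply hg2
    rw [Subgroup.mem_subgroupOf]
    obtain ⟨k, hk⟩ := S.2 g
    have hk' : ((g : SUJ K)) ^ p ^ k = 1 := congrArg Subtype.val hk
    have hcop : Nat.Coprime (Fintype.card K - 1) (p ^ k) := by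
      apply Nat.Coprime.pow_right
      rw [Nat.coprime_comm, Nat.Prime.coprime_iff_not_dvd hpp]
      intro hd
      have hc : Fintype.card K = (p ^ n) ^ 2 := by rw [← Nat.card_eq_fintype_card, h.card]
      have h6 : p ∣ Fintype.card K := by
        rw [hc, ← pow_mul]
        exact dvd_pow_self p (by have := h.hn; omega)
      have h7 : 1 ≤ Fintype.card K := Fintype.card_pos
      have h8 := (Nat.dvd_sub h6 hd)
      rw [Nat.sub_sub_self h7] at h8
      exact hpp.one_lt.ne' (Nat.dvd_one.1 h8)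
    have hd : ∀ i, mx (g : SUJ K) i i = 1 := by
      intro i
      have h3 : mx (g : SUJ K) i i ^ p ^ k = 1 := by
        rw [← (tri_pow htri (p ^ k)).2 i, hk', mx_one, Matrix.one_apply_eq]
      have h4 : mx (g : SUJ K) i i ≠ 0 := by
        intro h0
        rw [h0, zero_pow (pow_ne_zero _ hpp.ne_zero)] at h3
        exact zero_ne_one h3
      have h5 : mx (g : SUJ K) i i ^ (Fintype.card K - 1) = 1 := FiniteField.pow_card_sub_one_eq_one _ h4
      have h6 : orderOf (mx (g : SUJ K) i i) ∣ 1 := by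
        rw [← hcop.gcd_eq_one]
        exact Nat.dvd_gcd (orderOf_dvd_of_pow_eq_one h5) (orderOf_dvd_of_pow_eq_one h3)
      exact orderOf_eq_one_iff.1 (Nat.dvd_one.1 h6)
    obtain ⟨x, hx⟩ := mem_range_emb htri hd
    exact ⟨x, hx⟩
  rw [heq]
  exact S.not_dvd_index

/-! ### the action of the torus with field automorphisms -/

/-- the diagonal -/
def xv (s l : K) : Fin 4 → K := ![s, 1, l⁻¹, l⁻¹ * (star s)⁻¹]

theorem xv_TV {s l : K} (h1 : s ≠ 0) (h2 : l ≠ 0) (h3 : star l = l) : TV (xv s l) l⁻¹ := by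
  have h4 : star s ≠ 0 := star_ne_zero.2 h1
  refine ⟨inv_ne_zero h2, by rw [star_inv₀, h3], ?_, ?_⟩
  · show s * star (l⁻¹ * (star s)⁻¹) = l⁻¹
    rw [star_mul', star_inv₀, star_inv₀, star_star, h3]
    field_simp
  · show (1 : K) * star (l⁻¹) = l⁻¹
    rw [star_inv₀, h3, one_mul]

/-- the pair `(α, β)` belongs to `s`, `l`, `τ` -/
def IsP (ab : MulAut (PG K) × MulAut (SUJ K)) (s l : K) (τ : K ≃+* K) : Prop :=
  IsTorP ab.1 s l τ ∧ ∀ g, mx (ab.2 g) = cjm (xv s l) τ (mx g)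

theorem xv_mul {s l s' l' : K} {τ : K ≃+* K} (hτ : ∀ x, τ (star x) = star (τ x)) :
    (fun i => xv s l i * τ (xv s' l' i)) = xv (s * τ s') (l * τ l') := by
  funext i
  fin_cases i
  · rfl
  · show (1 : K) * τ 1 = 1
    rw [map_one, mul_one]
  · show l⁻¹ * τ l'⁻¹ = (l * τ l')⁻¹
    rw [map_inv₀, mul_inv]
  · show l⁻¹ * (star s)⁻¹ * τ (l'⁻¹ * (star s')⁻¹) = (l * τ l')⁻¹ * (star (s * τ s'))⁻¹
    rw [map_mul, map_inv₀, map_inv₀, hτ, star_mul', mul_inv, mul_inv]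
    ring

theorem IsP.mul {a b : MulAut (PG K) × MulAut (SUJ K)} {s l s' l' : K} {τ σ : K ≃+* K} (ha : IsP a s l τ)
    (hb : IsP b s' l' σ) : IsP (a * b) (s * τ s') (l * τ l') (σ.trans τ) := by
  refine ⟨isTorP_mul ha.1 hb.1, fun g => ?_⟩
  show mx (a.2 (b.2 g)) = _
  rw [ha.2, hb.2, cjm_cjm, xv_mul ha.1.tst]

theorem IsP.one : IsP (1 : MulAut (PG K) × MulAut (SUJ K)) 1 1 (RingEquiv.refl K) := by
  refine ⟨isTorP_one, fun g => ?_⟩
  show mx g = _
  ext i j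
  have h1 : ∀ i, xv (1 : K) 1 i = 1 := by
    intro i
    fin_cases i <;> simp [xv]
  show mx g i j = xv 1 1 i * mx g i j * (xv 1 1 j)⁻¹
  rw [h1, h1, inv_one, one_mul, mul_one]

theorem xv_symm {s l : K} (h1 : s ≠ 0) (h2 : l ≠ 0) {τ : K ≃+* K} (hτ : ∀ x, τ (star x) = star (τ x)) :
    (fun i => xv (τ.symm s)⁻¹ (τ.symm l)⁻¹ i * τ.symm (xv s l i)) = fun _ => 1 := by
  rw [xv_mul (tau_symm_star hτ)]
  have e1 : τ.symm s ≠ 0 := by simpa using h1
  have e2 : τ.symm l ≠ 0 := by simpa using h2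
  rw [inv_mul_cancel₀ e1, inv_mul_cancel₀ e2]
  funext i
  fin_cases i <;> simp [xv]

theorem cjm_symm {s l : K} (h1 : s ≠ 0) (h2 : l ≠ 0) {τ : K ≃+* K} (hτ : ∀ x, τ (star x) = star (τ x))
    (M : Matrix (Fin 4) (Fin 4) K) : cjm (xv (τ.symm s)⁻¹ (τ.symm l)⁻¹) τ.symm (cjm (xv s l) τ M) = M := by
  rw [cjm_cjm, xv_symm h1 h2 hτ]
  ext i j
  show 1 * (τ.symm (τ (M i j))) * (1)⁻¹ = M i j
  rw [RingEquiv.symm_apply_apply, one_mul, inv_one, mul_one]

theorem IsP.inv {a : MulAut (PG K) × MulAut (SUJ K)} {s l : K} {τ : K ≃+* K} (ha : IsP a s l τ) :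
    IsP a⁻¹ (τ.symm s)⁻¹ (τ.symm l)⁻¹ τ.symm := by
  refine ⟨isTorP_inv ha.1, fun g => ?_⟩
  obtain ⟨k, rfl⟩ := a.2.surjective g
  show mx (a.2⁻¹ (a.2 k)) = _
  rw [MulAut.inv_apply_self, ha.2, cjm_symm ha.1.ns ha.1.nl ha.1.tst]

variable (K) in
/-- the group of the pairs -/
def TPP : Subgroup (MulAut (PG K) × MulAut (SUJ K)) where
  carrier := {a | ∃ s l τ, IsP a s l τ}
  mul_mem' := by
    rintro a b ⟨_, _, _, ha⟩ ⟨_, _, _, hb⟩
    exact ⟨_, _, _, ha.mul hb⟩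
  one_mem' := ⟨_, _, _, IsP.one⟩
  inv_mem' := by
    rintro a ⟨_, _, _, ha⟩
    exact ⟨_, _, _, ha.inv⟩

/-- `α` determines `s`, `l`, `τ` -/
theorem isTorP_unique {α : MulAut (PG K)} {s l s' l' : K} {τ σ : K ≃+* K} (hx : IsTorP α s l τ)
    (hy : IsTorP α s' l' σ) : s = s' ∧ l = l' ∧ τ = σ := by
  have e1 : s = s' := by
    have h3 := hx.r ⟨1, 0, 0, 0, by simp, by simp⟩
    rw [hy.r] at h3
    have h4 : s' * σ 1 = s * τ 1 := h3
    rw [map_one, map_one, mul_one, mul_one] at h4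
    exact h4.symm
  have e2 : l = l' := by
    have h3 := hx.c ⟨0, 0, 0, 1, by simp, by simp⟩
    rw [hy.c] at h3
    have h4 : l' * σ 1 = l * τ 1 := h3
    rw [map_one, map_one, mul_one, mul_one] at h4
    exact h4.symm
  refine ⟨e1, e2, ?_⟩
  ext z
  have h3 := hx.r ⟨z, 0, 0, 0, by simp, by simp⟩
  rw [hy.r, ← e1] at h3
  exact (mul_left_cancel₀ hx.ns h3).symm

/-- the automorphism of `SUJ K` -/
theorem exists_autJ {s l : K} {τ : K ≃+* K} (h1 : s ≠ 0) (h2 : l ≠ 0) (h3 : star l = l)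
    (hτ : ∀ x, τ (star x) = star (τ x)) : ∃ β : MulAut (SUJ K), ∀ g, mx (β g) = cjm (xv s l) τ (mx g) := by
  have e1 : τ.symm s ≠ 0 := by simpa using h1
  have e2 : τ.symm l ≠ 0 := by simpa using h2
  have e3 : star (τ.symm l)⁻¹ = (τ.symm l)⁻¹ := by rw [star_inv₀, ← tau_symm_star hτ, h3]
  let f := autJ (xv s l) (xv_TV h1 h2 h3) τ hτ
  let f' := autJ (xv (τ.symm s)⁻¹ (τ.symm l)⁻¹) (xv_TV (inv_ne_zero e1) (inv_ne_zero e2) e3) τ.symm (tau_symm_star hτ)
  have hf' : ∀ g, f' (f g) = g := fun g => mx_injective (cjm_symm h1 h2 hτ (mx g))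
  have hf : ∀ g, f (f' g) = g := by
    intro g
    apply mx_injective
    have h3 := cjm_symm (s := (τ.symm s)⁻¹) (l := (τ.symm l)⁻¹) (τ := τ.symm) (inv_ne_zero e1) (inv_ne_zero e2)
      (tau_symm_star hτ) (mx g)
    rw [RingEquiv.symm_symm, map_inv₀, map_inv₀, RingEquiv.apply_symm_apply, RingEquiv.apply_symm_apply, inv_inv,
      inv_inv] at h3
    exact h3
  exact ⟨{ toFun := f, invFun := f', left_inv := hf', right_inv := hf, map_mul' := map_mul f }, fun g => rfl⟩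

/-! ### the normalizers -/

theorem nrm_tor (h : HypK K p n) {g : SUJ K} (hg : ∀ i j, j < i → mx g i j = 0) :
    ∃ (u : PG K) (τ : MulAut (PG K)), Cfsg.Agent.H64.P4.TorEl τ ∧ ∀ x : PG K, g * emb x * g⁻¹ = emb (u * τ x * u⁻¹) := by
  obtain ⟨u, x, y, hx, hy, hxy, rfl⟩ := exists_of_tri hg
  have h3 : star x ≠ 0 := star_ne_zero.2 hx
  have h4 : star y ≠ 0 := star_ne_zero.2 hy
  have hz : (x * y)⁻¹ ≠ 0 := inv_ne_zero (mul_ne_zero hx hy)
  have hzs : star (x * y)⁻¹ = (x * y)⁻¹ := by rw [star_inv₀, hxy]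
  have hl : star ((x * star x)⁻¹) = (x * star x)⁻¹ := by
    rw [star_inv₀, star_mul', star_star, mul_comm]
  have hα := isTorP_tor h (x ^ 2) ((x * star x)⁻¹) (pow_ne_zero 2 hx) (inv_ne_zero (mul_ne_zero hx h3)) hl (RingEquiv.refl K)
  have hl2 : star (((x * y)⁻¹)⁻¹ * ((x * y)⁻¹)⁻¹) = ((x * y)⁻¹)⁻¹ * ((x * y)⁻¹)⁻¹ := by
    rw [inv_inv, star_mul', hxy]
  have hβ := isTorP_tor h ((x * y)⁻¹) (((x * y)⁻¹)⁻¹ * ((x * y)⁻¹)⁻¹) hz (mul_ne_zero (inv_ne_zero hz) (inv_ne_zero hz))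
    hl2 (RingEquiv.refl K)
  refine ⟨u, _, ⟨x, (x * y)⁻¹, _, _, hx, hz, hzs, hα, hβ, rfl⟩, fun w => ?_⟩
  have hαβ := isTorP_mul hα hβ
  have e1 : x ^ 2 * (RingEquiv.refl K) ((x * y)⁻¹) = x / y := by
    show x ^ 2 * (x * y)⁻¹ = x / y
    field_simp
  have e2 : (x * star x)⁻¹ * (RingEquiv.refl K) (((x * y)⁻¹)⁻¹ * ((x * y)⁻¹)⁻¹) = y * star y := by
    show (x * star x)⁻¹ * (((x * y)⁻¹)⁻¹ * ((x * y)⁻¹)⁻¹) = y * star y
    rw [inv_inv]
    rw [star_mul'] at hxy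
    have e3 : x * y * (x * y) = x * star x * (y * star y) := by
      calc x * y * (x * y) = x * y * (star x * star y) := by rw [hxy]
        _ = x * star x * (y * star y) := by ring
    rw [e3, inv_mul_cancel_left₀ (mul_ne_zero hx h3)]
  rw [e1, e2] at hαβ
  have h5 := dg_conj hx hy hxy hαβ w
  rw [map_mul, map_mul, map_inv, ← h5]
  group

theorem nrmV [Finite (SUJ K)] {g : SUJ K} (hg : ∀ x ∈ PV K, ∃ y ∈ PV K, g * emb x * g⁻¹ = emb y) :
    ∃ c : K, c ≠ 0 ∧ ∀ x ∈ PV K, ∀ y ∈ PV K, g * emb x * g⁻¹ = emb y →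
      y.a * y.c - y.b * star y.b = c * (x.a * x.c - x.b * star x.b) := by
  obtain ⟨m20, m21, m30, m31⟩ := blockV (surj_of hg)
  have hM := mx_form g
  have r03 := hM.row_rel 0 3
  have r02 := hM.row_rel 0 2
  have r12 := hM.row_rel 1 2
  have r13 := hM.row_rel 1 3
  have j03 : J K 0 3 = 1 := rfl
  have j02 : J K 0 2 = 0 := rfl
  have j12 : J K 1 2 = 1 := rfl
  have j13 : J K 1 3 = 0 := rfl
  rw [j03, m30, m31, star_zero] at r03
  rw [j02, m20, m21, star_zero] at r02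
  rw [j12, m20, m21, star_zero] at r12
  rw [j13, m30, m31, star_zero] at r13
  have hdet : (mx g 0 0 * mx g 1 1 - mx g 0 1 * mx g 1 0) * star (mx g 2 2 * mx g 3 3 - mx g 2 3 * mx g 3 2) = 1 := by
    rw [star_sub, star_mul', star_mul']
    linear_combination (mx g 1 0 * star (mx g 2 3) + mx g 1 1 * star (mx g 2 2)) * r03 + r12 -
      (mx g 1 0 * star (mx g 3 3) + mx g 1 1 * star (mx g 3 2)) * r02
  have hA : mx g 0 0 * mx g 1 1 - mx g 0 1 * mx g 1 0 ≠ 0 := fun h => by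
    rw [h, zero_mul] at hdet
    exact zero_ne_one hdet
  have hD : mx g 2 2 * mx g 3 3 - mx g 2 3 * mx g 3 2 ≠ 0 := fun h => by
    rw [h, star_zero, mul_zero] at hdet
    exact zero_ne_one hdet
  refine ⟨_, div_ne_zero hA hD, fun x hx y hy hxy => ?_⟩
  have hxr : x.r = 0 := hx
  have hyr : y.r = 0 := hy
  rw [mul_inv_eq_iff_eq_mul] at hxy
  have hm : mx g * mt x = mt y * mx g := congrArg mx hxy
  have E : ∀ i j, mx g i 0 * mt x 0 j + mx g i 1 * mt x 1 j + mx g i 2 * mt x 2 j + mx g i 3 * mt x 3 j =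
      mt y i 0 * mx g 0 j + mt y i 1 * mx g 1 j + mt y i 2 * mx g 2 j + mt y i 3 * mx g 3 j := by
    intro i j
    have h1 := congrFun (congrFun hm i) j
    rw [Matrix.mul_apply, Matrix.mul_apply, Fin.sum_univ_four, Fin.sum_univ_four] at h1
    exact h1
  have E1 : mx g 0 0 * x.b + mx g 0 1 * x.c + mx g 0 2 * 1 + mx g 0 3 * 0 =
      1 * mx g 0 2 + y.r * mx g 1 2 + y.b * mx g 2 2 + (y.a - y.b * star y.r) * mx g 3 2 := E 0 2
  have E2 : mx g 0 0 * (x.a - x.b * star x.r) + mx g 0 1 * (star x.b - x.c * star x.r) + mx g 0 2 * (- star x.r) + mx g 0 3 * 1 =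
      1 * mx g 0 3 + y.r * mx g 1 3 + y.b * mx g 2 3 + (y.a - y.b * star y.r) * mx g 3 3 := E 0 3
  have E3 : mx g 1 0 * x.b + mx g 1 1 * x.c + mx g 1 2 * 1 + mx g 1 3 * 0 =
      0 * mx g 0 2 + 1 * mx g 1 2 + y.c * mx g 2 2 + (star y.b - y.c * star y.r) * mx g 3 2 := E 1 2
  have E4 : mx g 1 0 * (x.a - x.b * star x.r) + mx g 1 1 * (star x.b - x.c * star x.r) + mx g 1 2 * (- star x.r) + mx g 1 3 * 1 =
      0 * mx g 0 3 + 1 * mx g 1 3 + y.c * mx g 2 3 + (star y.b - y.c * star y.r) * mx g 3 3 := E 1 3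
  rw [hyr, star_zero] at E1 E3
  rw [hxr, hyr, star_zero] at E2 E4
  have F1 : mx g 0 0 * x.b + mx g 0 1 * x.c = y.b * mx g 2 2 + y.a * mx g 3 2 := by linear_combination E1
  have F2 : mx g 0 0 * x.a + mx g 0 1 * star x.b = y.b * mx g 2 3 + y.a * mx g 3 3 := by linear_combination E2
  have F3 : mx g 1 0 * x.b + mx g 1 1 * x.c = y.c * mx g 2 2 + star y.b * mx g 3 2 := by linear_combination E3
  have F4 : mx g 1 0 * x.a + mx g 1 1 * star x.b = y.c * mx g 2 3 + star y.b * mx g 3 3 := by linear_combination E4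
  rw [div_mul_eq_mul_div, eq_div_iff hD]
  linear_combination (mx g 1 0 * x.a + mx g 1 1 * star x.b) * F1 + (y.b * mx g 2 2 + y.a * mx g 3 2) * F4 -
    (mx g 1 0 * x.b + mx g 1 1 * x.c) * F2 - (y.b * mx g 2 3 + y.a * mx g 3 3) * F3

/-- **REAL-a.** -/
theorem realA : Cfsg.Agent.H64.P4.StRealA.{u} := by
  intro K _ _ p n _ h
  have hfin := finite_SUJ h
  have hnrm : ∀ g : SUJ K, (∀ x : PG K, g * emb x * g⁻¹ ∈ (emb : PG K →* SUJ K).range) →
      ∃ (u : PG K) (τ : MulAut (PG K)), Cfsg.Agent.H64.P4.TorEl τ ∧ ∀ x : PG K, g * emb x * g⁻¹ = emb (u * τ x * u⁻¹) :=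
    fun g hg => nrm_tor h (tri_of_norm hg)
  refine ⟨{
    G0 := SUJ K
    T := TPP K
    ι := emb
    ρ := (MonoidHom.fst _ _).comp (TPP K).subtype
    A := (MonoidHom.snd _ _).comp (TPP K).subtype
    inj := emb_injective
    syl := index_emb h
    injT := ?_
    tor := ?_
    act := ?_
    nrm := hnrm
    nrmQ := ?_
    nrmV := fun g hg => nrmV hg
    wV := ⟨wV, _, isWV_wv, fun e => wV_conj isWV_wv e⟩
    wQ := ⟨wQ, _, isWQ_wq, fun e => wQ_conj isWQ_wq e⟩ }⟩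
  · rintro ⟨⟨a, b⟩, s, l, τ, hx⟩ ⟨⟨a', b'⟩, s', l', σ, hy⟩ hab
    have h1 : a = a' := hab
    subst h1
    obtain ⟨e1, e2, e3⟩ := isTorP_unique hx.1 hy.1
    subst e1; subst e2; subst e3
    apply Subtype.ext
    refine Prod.ext rfl ?_
    show b = b'
    ext g : 1
    exact mx_injective ((hx.2 g).trans (hy.2 g).symm)
  · intro α s l τ hα
    obtain ⟨β, hβ⟩ := exists_autJ hα.ns hα.nl hα.sl hα.tst
    exact ⟨⟨(α, β), s, l, τ, hα, hβ⟩, rfl⟩
  · rintro ⟨⟨a, b⟩, s, l, τ, hx⟩ g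
    show b (emb g) = emb (a g)
    apply mx_injective
    rw [hx.2, mx_emb, mx_emb]
    refine cjm_mt (s := s) (l := l) ?_ ?_ ?_ ?_ hx.1 g
    · show s = s * 1
      rw [mul_one]
    · show l⁻¹ = l⁻¹ * 1
      rw [mul_one]
    · show l⁻¹ * (star s)⁻¹ = l⁻¹ * (star s)⁻¹ * 1
      rw [mul_one]
    · show (1 : K) ≠ 0
      exact one_ne_zero
  · refine Cfsg.Agent.H64.P4.nrmQ_of h emb hnrm wQ isWQ_wq (fun e => wQ_conj isWQ_wq e) ?_
    intro g hg
    rcases brQ hg with h1 | ⟨x, k, hk, hgx⟩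
    · exact Or.inl (tri_norm h1)
    · exact Or.inr ⟨x, k, tri_norm hk, hgx⟩

end Cfsg.Agent.H458.P4
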